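/-
A `2`-group `A⟨τ⟩` built from the `2`-part of an abelian subgroup and an involution, and its fusion system in a
quotient by an odd central subgroup.
-/
import Cfsg.Agent.Lib.PSLFus.Gen
import Cfsg.Agent.Lib.Fusion.Compare
import Cfsg.Agent.Lib.Char.Product

set_option autoImplicit false

namespace Cfsg.Agent.Lib.PSL3Two

open Cfsg Cfsg.FusionSystem Cfsg.Agent.Lib.Fusion Cfsg.Agent.Lib.PSLFus

/-- The data: an abelian subgroup and an involution acting on it. -/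
structure Dat (L : Type*) [Group L] where
  B : Subgroup L
  hB : ∀ x ∈ B, ∀ y ∈ B, x * y = y * x
  τ : L
  hτ : τ * τ = 1
  hτB : ∀ b ∈ B, τ * b * τ ∈ B
  hτn : τ ∉ B

variable {L : Type*} [Group L]

lemma pow_odd_two {x : L} {e o : ℕ} (h1 : x ^ 2 ^ e = 1) (h2 : x ^ o = 1) (ho : Odd o) : x = 1 := by
  have hcop : Nat.Coprime (2 ^ e) o := Nat.Coprime.pow_left e (Nat.coprime_two_left.2 ho)
  have h6 := pow_gcd_eq_one.2 ⟨h1, h2⟩
  rwa [hcop.gcd_eq_one, pow_one] at h6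

namespace Dat

variable (D : Dat L)

lemma inv_τ : D.τ⁻¹ = D.τ := inv_eq_of_mul_eq_one_left D.hτ

/-- The `2`-part of `B`. -/
def A : Subgroup L where
  carrier := {g | g ∈ D.B ∧ ∃ e : ℕ, g ^ 2 ^ e = 1}
  one_mem' := ⟨one_mem _, 0, by simp⟩
  mul_mem' := by
    rintro a b ⟨ha, e, he⟩ ⟨hb, f, hf⟩
    refine ⟨mul_mem ha hb, e + f, ?_⟩
    have hc : Commute a b := D.hB a ha b hb
    rw [hc.mul_pow]
    have h1 : a ^ 2 ^ (e + f) = 1 := by
      rw [pow_add, pow_mul, he, one_pow]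
    have h2 : b ^ 2 ^ (e + f) = 1 := by
      rw [add_comm, pow_add, pow_mul, hf, one_pow]
    rw [h1, h2, one_mul]
  inv_mem' := by
    rintro a ⟨ha, e, he⟩
    exact ⟨inv_mem ha, e, by rw [inv_pow, he, inv_one]⟩

lemma mem_A {g : L} : g ∈ D.A ↔ g ∈ D.B ∧ ∃ e : ℕ, g ^ 2 ^ e = 1 := Iff.rfl

lemma τ_A {a : L} (ha : a ∈ D.A) : D.τ * a * D.τ ∈ D.A := by
  obtain ⟨h1, e, he⟩ := ha
  refine ⟨D.hτB a h1, e, ?_⟩
  have h2 : D.τ * a * D.τ = D.τ * a * D.τ⁻¹ := by rw [D.inv_τ]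
  rw [h2, conj_pow, he]
  simp

/-- The `2`-group. -/
def S0 : Subgroup L where
  carrier := {g | g ∈ D.A ∨ g * D.τ ∈ D.A}
  one_mem' := Or.inl (one_mem _)
  mul_mem' := by
    rintro a b (ha | ha) (hb | hb)
    · exact Or.inl (mul_mem ha hb)
    · refine Or.inr ?_
      rw [mul_assoc]
      exact mul_mem ha hb
    · refine Or.inr ?_
      have e : a * b * D.τ = (a * D.τ) * (D.τ * b * D.τ) := by
        simp only [mul_assoc]
        rw [← mul_assoc D.τ D.τ, D.hτ, one_mul]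
      rw [e]
      exact mul_mem ha (D.τ_A hb)
    · refine Or.inl ?_
      have e : a * b = (a * D.τ) * (D.τ * (b * D.τ) * D.τ) := by
        simp only [mul_assoc]
        rw [D.hτ, mul_one, ← mul_assoc D.τ D.τ, D.hτ, one_mul]
      rw [e]
      exact mul_mem ha (D.τ_A hb)
  inv_mem' := by
    rintro a (ha | ha)
    · exact Or.inl (inv_mem ha)
    · refine Or.inr ?_
      have e : a⁻¹ * D.τ = D.τ * (a * D.τ)⁻¹ * D.τ := by
        rw [mul_inv_rev, D.inv_τ]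
        simp only [mul_assoc]
        rw [← mul_assoc D.τ D.τ, D.hτ, one_mul]
      rw [e]
      exact D.τ_A (inv_mem ha)

lemma mem_S0 {g : L} : g ∈ D.S0 ↔ g ∈ D.A ∨ g * D.τ ∈ D.A := Iff.rfl

lemma A_le : D.A ≤ D.S0 := fun _ h => Or.inl h

lemma τ_mem : D.τ ∈ D.S0 := Or.inr (by
  rw [D.hτ]
  exact one_mem _)

lemma eq_mul_τ {g : L} : g = (g * D.τ) * D.τ := by
  rw [mul_assoc, D.hτ, mul_one]

lemma isPGroup : IsPGroup 2 D.S0 := by
  rintro ⟨g, hg⟩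
  have h1 : ∃ k : ℕ, g ^ 2 ^ k = 1 := by
    rcases hg with hg | hg
    · exact hg.2
    · have h2 : g * g ∈ D.A := by
        have e : g * g = (g * D.τ) * (D.τ * (g * D.τ) * D.τ) := by
          simp only [mul_assoc]
          rw [D.hτ, mul_one, ← mul_assoc D.τ D.τ, D.hτ, one_mul]
        rw [e]
        exact mul_mem hg (D.τ_A hg)
      obtain ⟨-, e, he⟩ := h2
      refine ⟨e + 1, ?_⟩
      rw [pow_succ', pow_mul, ← sq] at *
      rwa [pow_two] at *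
  obtain ⟨k, hk⟩ := h1
  refine ⟨k, ?_⟩
  apply Subtype.ext
  simpa using hk

lemma S0_inf_B {x : L} (h1 : x ∈ D.S0) (h2 : x ∈ D.B) : x ∈ D.A := by
  rcases h1 with h1 | h1
  · exact h1
  · exfalso
    apply D.hτn
    have e : D.τ = x⁻¹ * (x * D.τ) := by group
    rw [e]
    exact mul_mem (inv_mem h2) h1.1

variable [Finite L]

/-- Splitting an element of finite order into its `2`-part and odd part. -/
lemma exists_parts (b : L) : ∃ b₂ b' : L, b = b₂ * b' ∧ b₂ ∈ Subgroup.zpowers b ∧ b' ∈ Subgroup.zpowers b ∧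
    (∃ e : ℕ, b₂ ^ 2 ^ e = 1) ∧ ∃ o : ℕ, Odd o ∧ b' ^ o = 1 := by
  have hpos : orderOf b ≠ 0 := (orderOf_pos b).ne'
  obtain ⟨e, o, ho, hn⟩ := Nat.exists_eq_two_pow_mul_odd hpos
  have hcop : Nat.Coprime (2 ^ e) o := Nat.Coprime.pow_left e (Nat.coprime_two_left.2 ho)
  have hb := Nat.gcd_eq_gcd_ab (2 ^ e) o
  rw [hcop.gcd_eq_one] at hb
  set u := Nat.gcdA (2 ^ e) o
  set v := Nat.gcdB (2 ^ e) o
  have hord : b ^ ((2 ^ e * o : ℕ) : ℤ) = 1 := by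
    rw [← hn, zpow_natCast]
    exact pow_orderOf_eq_one b
  refine ⟨b ^ ((o : ℤ) * v), b ^ (((2 ^ e : ℕ) : ℤ) * u), ?_, ⟨_, rfl⟩, ⟨_, rfl⟩, ⟨e, ?_⟩, o, ho, ?_⟩
  · rw [← zpow_add]
    have e1 : (o : ℤ) * v + ((2 ^ e : ℕ) : ℤ) * u = 1 := by
      rw [add_comm]
      exact hb.symm
    rw [e1, zpow_one]
  · rw [← zpow_natCast, ← zpow_mul]
    have e2 : (o : ℤ) * v * ((2 ^ e : ℕ) : ℤ) = ((2 ^ e * o : ℕ) : ℤ) * v := by
      push_cast
      ring
    rw [e2, zpow_mul, hord, one_zpow]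
  · rw [← zpow_natCast, ← zpow_mul]
    have e2 : ((2 ^ e : ℕ) : ℤ) * u * (o : ℤ) = ((2 ^ e * o : ℕ) : ℤ) * u := by
      push_cast
      ring
    rw [e2, zpow_mul, hord, one_zpow]

/-- An element of `B` normalizing `S0`: its odd part commutes with `τ`. -/
lemma odd_comm' {b b₂ b' : L} (h1 : b * D.τ * b⁻¹ * D.τ ∈ D.A) (hb : b = b₂ * b')
    (hb₂ : b₂ ∈ D.B) (hb' : b' ∈ D.B) (h2 : ∃ e : ℕ, b₂ ^ 2 ^ e = 1) (ho : ∃ o : ℕ, Odd o ∧ b' ^ o = 1) :
    b' * D.τ = D.τ * b' := by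
  obtain ⟨o, ho, hbo⟩ := ho
  have hb₂A : b₂ ∈ D.A := ⟨hb₂, h2⟩
  have hσ : ∀ x y : L, D.τ * (x * y) * D.τ = (D.τ * x * D.τ) * (D.τ * y * D.τ) := by
    intro x y
    simp only [mul_assoc]
    rw [← mul_assoc D.τ D.τ, D.hτ, one_mul]
  have hσinv : ∀ x : L, D.τ * x⁻¹ * D.τ = (D.τ * x * D.τ)⁻¹ := by
    intro x
    rw [mul_inv_rev, mul_inv_rev, D.inv_τ, mul_assoc]
  have hc : ∀ x, x * D.τ * x⁻¹ * D.τ = x * (D.τ * x * D.τ)⁻¹ := by
    intro x
    rw [← hσinv]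
    group
  have h3 : b' * (D.τ * b' * D.τ)⁻¹ ∈ D.A := by
    have e : b' * (D.τ * b' * D.τ)⁻¹ = (b₂ * (D.τ * b₂ * D.τ)⁻¹)⁻¹ * (b * (D.τ * b * D.τ)⁻¹) := by
      rw [hb, hσ]
      have hcm : (D.τ * b₂ * D.τ) * (b' * (D.τ * b' * D.τ)⁻¹) = (b' * (D.τ * b' * D.τ)⁻¹) * (D.τ * b₂ * D.τ) :=
        D.hB _ (D.hτB b₂ hb₂) _ (mul_mem hb' (inv_mem (D.hτB b' hb')))
      generalize D.τ * b₂ * D.τ = P at *
      generalize D.τ * b' * D.τ = R at *
      calc b' * R⁻¹ = P * (b' * R⁻¹) * P⁻¹ := by rw [hcm]; group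
        _ = _ := by group
    rw [e]
    refine mul_mem (inv_mem (mul_mem hb₂A (inv_mem (D.τ_A hb₂A)))) ?_
    rw [← hc]
    exact h1
  obtain ⟨-, f, hf⟩ := h3
  have h4 : (b' * (D.τ * b' * D.τ)⁻¹) ^ o = 1 := by
    have hcm : Commute b' (D.τ * b' * D.τ)⁻¹ := D.hB _ hb' _ (inv_mem (D.hτB b' hb'))
    rw [hcm.mul_pow, hbo, one_mul, inv_pow]
    have h5 : D.τ * b' * D.τ = D.τ * b' * D.τ⁻¹ := by rw [D.inv_τ]
    rw [h5, conj_pow, hbo]
    simp
  have h5 := pow_odd_two hf h4 ho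
  have h6 : b' = D.τ * b' * D.τ := mul_inv_eq_one.1 h5
  calc b' * D.τ = (D.τ * b' * D.τ) * D.τ := by rw [← h6]
    _ = D.τ * b' := by rw [mul_assoc, D.hτ, mul_one]

lemma odd_comm {b b₂ b' : L} (hbB : b ∈ D.B) (hn : b ∈ Subgroup.normalizer (D.S0 : Set L)) (hb : b = b₂ * b')
    (hb₂ : b₂ ∈ D.B) (hb' : b' ∈ D.B) (h2 : ∃ e : ℕ, b₂ ^ 2 ^ e = 1) (ho : ∃ o : ℕ, Odd o ∧ b' ^ o = 1) :
    b' * D.τ = D.τ * b' := by
  refine D.odd_comm' ?_ hb hb₂ hb' h2 ho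
  refine D.S0_inf_B ?_ ?_
  · exact mul_mem (Fusion.conj_mem_of_mem_normalizer hn D.τ_mem) D.τ_mem
  · have e : b * D.τ * b⁻¹ * D.τ = b * (D.τ * b⁻¹ * D.τ) := by group
    rw [e]
    exact mul_mem hbB (D.hτB _ (inv_mem hbB))

/-- An element of `A` that is a commutator of `τ` with an element of `B`. -/
lemma comm_mem {T₀ : Subgroup L} (hT : ∀ y ∈ T₀, ∀ g : L, g * y * g⁻¹ ∈ D.S0 → g * y * g⁻¹ ∈ T₀) (hτT : D.τ ∈ T₀)
    {u a : L} (hu : u ∈ D.B) (ha : a ∈ D.A) (e : a = u * D.τ * u⁻¹ * D.τ) : a ∈ T₀ := by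
  obtain ⟨u₂, u', hd, h1, h2, h3, h4⟩ := exists_parts u
  have h1' : u₂ ∈ D.B := (Subgroup.zpowers_le.2 hu) h1
  have h2' : u' ∈ D.B := (Subgroup.zpowers_le.2 hu) h2
  have hc := D.odd_comm' (b := u) (by rw [← e]; exact ha) hd h1' h2' h3 h4
  have hu₂A : u₂ ∈ D.A := ⟨h1', h3⟩
  have e2 : a = u₂ * D.τ * u₂⁻¹ * D.τ := by
    rw [e, hd]
    calc u₂ * u' * D.τ * (u₂ * u')⁻¹ * D.τ = u₂ * (u' * D.τ) * u'⁻¹ * u₂⁻¹ * D.τ := by group
      _ = u₂ * D.τ * u₂⁻¹ * D.τ := by rw [hc]; group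
  have h5 : u₂ * D.τ * u₂⁻¹ ∈ D.S0 := mul_mem (mul_mem (D.A_le hu₂A) D.τ_mem) (inv_mem (D.A_le hu₂A))
  rw [e2]
  exact mul_mem (hT _ hτT _ h5) hτT

lemma sq_mem {g : L} (hg : g ∈ D.S0) : g * g ∈ D.A := by
  rcases hg with hg | hg
  · exact mul_mem hg hg
  · have e : g * g = (g * D.τ) * (D.τ * (g * D.τ) * D.τ) := by
      simp only [mul_assoc]
      rw [D.hτ, mul_one, ← mul_assoc D.τ D.τ, D.hτ, one_mul]
    rw [e]
    exact mul_mem hg (D.τ_A hg)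

/-- If `v` is the only central involution of `S0`, then normalizing elements fix it. -/
lemma fix_inv {z g : L} (hz1 : z ≠ 1) (hz2 : z * z = 1) (hzS : z ∈ D.S0) (hzc : ∀ s ∈ D.S0, s * z = z * s)
    (hu : ∀ v ∈ D.S0, v ≠ 1 → v * v = 1 → (∀ s ∈ D.S0, s * v = v * s) → v = z)
    (hg : g ∈ Subgroup.normalizer (D.S0 : Set L)) : g * z = z * g := by
  have h := hu (g * z * g⁻¹) (Fusion.conj_mem_of_mem_normalizer hg hzS) (by
    intro h
    apply hz1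
    have : z = g⁻¹ * (g * z * g⁻¹) * g := by group
    rw [this, h]
    group) (by
      calc g * z * g⁻¹ * (g * z * g⁻¹) = g * (z * z) * g⁻¹ := by group
        _ = 1 := by rw [hz2]; group) (fun s hs => by
      have h1 := hzc (g⁻¹ * s * g) (by
        have := Fusion.conj_mem_of_mem_normalizer (inv_mem hg) hs
        simpa using this)
      calc s * (g * z * g⁻¹) = g * ((g⁻¹ * s * g) * z) * g⁻¹ := by group
        _ = g * (z * (g⁻¹ * s * g)) * g⁻¹ := by rw [h1]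
        _ = g * z * g⁻¹ * s := by group)
  calc g * z = (g * z * g⁻¹) * g := by group
    _ = z * g := by rw [h]

/-- A strongly closed subgroup contains a central involution. -/
lemma exists_central {T₀ : Subgroup L} (hT₀ : T₀ ≤ D.S0) (hne : T₀ ≠ ⊥)
    (hT : ∀ y ∈ T₀, ∀ g : L, g * y * g⁻¹ ∈ D.S0 → g * y * g⁻¹ ∈ T₀) :
    ∃ v ∈ T₀, v ≠ 1 ∧ v * v = 1 ∧ ∀ s ∈ D.S0, s * v = v * s := by
  let N : Subgroup D.S0 := T₀.subgroupOf D.S0
  have hN : N.Normal := ⟨fun x hx g => Subgroup.mem_subgroupOf.2 (by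
    have h1 := hT x.1 (Subgroup.mem_subgroupOf.1 hx) g.1 (mul_mem (mul_mem g.2 x.2) (inv_mem g.2))
    simpa using h1)⟩
  have hNne : N ≠ ⊥ := by
    obtain ⟨⟨t, ht⟩, ht1⟩ := (Subgroup.ne_bot_iff_exists_ne_one).1 hne
    intro hbot
    have h2 : (⟨t, hT₀ ht⟩ : D.S0) ∈ N := Subgroup.mem_subgroupOf.2 ht
    rw [hbot, Subgroup.mem_bot] at h2
    apply ht1
    apply Subtype.ext
    exact congrArg (fun z : D.S0 => (z : L)) h2
  obtain ⟨z, hzN, hzc, hz1⟩ := Cfsg.Agent.Lib.Char.exists_mem_center_of_normal D.isPGroup N hN hNne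
  obtain ⟨k, hk⟩ := D.isPGroup z
  have hzc' : ∀ s ∈ D.S0, s * (z : L) = z * s := fun s hs => by
    have h1 := Subgroup.mem_center_iff.1 hzc ⟨s, hs⟩
    exact congrArg (fun y : D.S0 => (y : L)) h1
  -- the last nontrivial power
  have key : ∀ j : ℕ, (z : L) ^ 2 ^ j = 1 → ∃ i : ℕ, (z : L) ^ 2 ^ i ≠ 1 ∧ (z : L) ^ 2 ^ (i + 1) = 1 := by
    intro j
    induction j with
    | zero =>
      intro h
      exfalso
      apply hz1
      apply Subtype.ext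
      simpa using h
    | succ j ih =>
      intro h
      by_cases h1 : (z : L) ^ 2 ^ j = 1
      · exact ih h1
      · exact ⟨j, h1, h⟩
  obtain ⟨i, hi1, hi2⟩ := key k (by
    have := congrArg (fun y : D.S0 => (y : L)) hk
    simpa using this)
  refine ⟨(z : L) ^ 2 ^ i, pow_mem (Subgroup.mem_subgroupOf.1 hzN) _, hi1, ?_, fun s hs => ?_⟩
  · rw [← pow_add, ← two_mul, ← pow_succ']
    exact hi2
  · have hcm : Commute s (z : L) := hzc' s hs
    exact (hcm.pow_right _)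

/-- The odd part centralizes `S0`. -/
lemma odd_central {b' : L} (hb' : b' ∈ D.B) (hc : b' * D.τ = D.τ * b') {y : L} (hy : y ∈ D.S0) : b' * y = y * b' := by
  rcases hy with hy | hy
  · exact D.hB _ hb' _ hy.1
  · have h1 : b' * (y * D.τ) = (y * D.τ) * b' := D.hB _ hb' _ hy.1
    have e : y = (y * D.τ) * D.τ := D.eq_mul_τ
    rw [e, ← mul_assoc, h1, mul_assoc, hc, mul_assoc]
    simp only [mul_assoc]

section Main

variable (H : ∀ g ∈ Subgroup.normalizer (D.S0 : Set L), g ∈ D.B ∨ g * D.τ ∈ D.B)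

include H

lemma exists_form {g : L} (hg : g ∈ Subgroup.normalizer (D.S0 : Set L)) :
    ∃ s ∈ D.S0, ∃ c ∈ D.B, g = s * c ∧ (∀ y ∈ D.S0, c * y = y * c) ∧ ∃ o : ℕ, Odd o ∧ c ^ o = 1 := by
  have hτN : D.τ ∈ Subgroup.normalizer (D.S0 : Set L) := Subgroup.le_normalizer D.τ_mem
  have key : ∀ b ∈ D.B, b ∈ Subgroup.normalizer (D.S0 : Set L) → ∃ b₂ ∈ D.A, ∃ b' ∈ D.B, b = b₂ * b' ∧
      b' * D.τ = D.τ * b' ∧ ∃ o : ℕ, Odd o ∧ b' ^ o = 1 := by
    intro b hb hbN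
    obtain ⟨b₂, b', e, h1, h2, h3, h4⟩ := exists_parts b
    have h1' : b₂ ∈ D.B := (Subgroup.zpowers_le.2 hb) h1
    have h2' : b' ∈ D.B := (Subgroup.zpowers_le.2 hb) h2
    exact ⟨b₂, ⟨h1', h3⟩, b', h2', e, D.odd_comm hb hbN e h1' h2' h3 h4, h4⟩
  rcases H g hg with h | h
  · obtain ⟨b₂, h1, b', h2, e, h3, h4⟩ := key g h hg
    exact ⟨b₂, D.A_le h1, b', h2, e, fun y hy => D.odd_central h2 h3 hy, h4⟩
  · obtain ⟨b₂, h1, b', h2, e, h3, h4⟩ := key _ h (mul_mem hg hτN)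
    refine ⟨b₂ * D.τ, mul_mem (D.A_le h1) D.τ_mem, b', h2, ?_, fun y hy => D.odd_central h2 h3 hy, h4⟩
    calc g = (g * D.τ) * D.τ := D.eq_mul_τ
      _ = b₂ * (b' * D.τ) := by rw [e, mul_assoc]
      _ = b₂ * D.τ * b' := by rw [h3, mul_assoc]

/-- `N(S0)` acts on `S0` by inner automorphisms. -/
theorem acts_inner {g : L} (hg : g ∈ Subgroup.normalizer (D.S0 : Set L)) :
    ∃ s ∈ D.S0, ∀ y ∈ D.S0, g * y * g⁻¹ = s * y * s⁻¹ := by
  obtain ⟨s, hs, c, -, rfl, hc, -⟩ := D.exists_form H hg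
  refine ⟨s, hs, fun y hy => ?_⟩
  have h1 := hc y hy
  calc s * c * y * (s * c)⁻¹ = s * (c * y) * c⁻¹ * s⁻¹ := by group
    _ = s * y * s⁻¹ := by rw [h1]; group

/-- `2`-elements normalizing `S0` lie in it. -/
theorem mem_of_two {g : L} (hg : g ∈ Subgroup.normalizer (D.S0 : Set L)) (h2 : ∃ e : ℕ, g ^ 2 ^ e = 1) : g ∈ D.S0 := by
  obtain ⟨s, hs, c, -, rfl, hc, o, ho, hco⟩ := D.exists_form H hg
  obtain ⟨e, he⟩ := h2
  obtain ⟨f, hf⟩ := D.isPGroup ⟨s, hs⟩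
  have hf' : s ^ 2 ^ f = 1 := by
    have := congrArg (fun z : D.S0 => (z : L)) hf
    simpa using this
  have hcm : Commute s c := (hc s hs).symm
  have h3 : c ^ 2 ^ (e + f) = 1 := by
    have h4 : (s * c) ^ 2 ^ (e + f) = 1 := by
      rw [pow_add, pow_mul, he, one_pow]
    rw [hcm.mul_pow] at h4
    have h5 : s ^ 2 ^ (e + f) = 1 := by
      rw [add_comm, pow_add, pow_mul, hf', one_pow]
    rwa [h5, one_mul] at h4
  rw [pow_odd_two h3 hco ho, mul_one]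
  exact hs

/-- `S0` is Sylow. -/
theorem exists_sylow : ∃ P : Sylow 2 L, (P : Subgroup L) = D.S0 := by
  obtain ⟨P, hle⟩ := D.isPGroup.exists_le_sylow
  refine ⟨P, le_antisymm ?_ hle⟩
  by_contra hcon
  have hlt : D.S0 < (P : Subgroup L) := lt_of_le_of_ne hle fun e => hcon e.ge
  have hlt' := lt_normalizerIn P.isPGroup' hlt
  obtain ⟨g, hg, hg'⟩ := SetLike.exists_of_lt hlt'
  obtain ⟨hgS, hgN⟩ := mem_normalizerIn.1 hg
  obtain ⟨k, hk1⟩ := P.isPGroup' ⟨_, hgS⟩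
  have hk2 : g ^ 2 ^ k = 1 := by
    have := congrArg (fun z : (P : Subgroup L) => (z : L)) hk1
    simpa using this
  exact hg' (D.mem_of_two H hgN ⟨k, hk2⟩)

end Main

end Dat

section Fus

variable {G : Type*} [Group G] [Finite G] [Finite L] (D : Dat L)
  (H : ∀ g ∈ Subgroup.normalizer (D.S0 : Set L), g ∈ D.B ∨ g * D.τ ∈ D.B)
  (Θ : L →* G) (hs : Function.Surjective Θ)
  (hk : ∀ z ∈ Θ.ker, z ∈ Subgroup.center L ∧ ∃ o : ℕ, Odd o ∧ z ^ o = 1)
  (S : Sylow 2 G) (hS : (S : Subgroup G) = D.S0.map Θ)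

include hk in
/-- Elements normalizing the image normalize `S0`. -/
lemma norm_lift {g : L} (hg : Θ g ∈ Subgroup.normalizer ((D.S0.map Θ : Subgroup G) : Set G)) :
    g ∈ Subgroup.normalizer (D.S0 : Set L) := by
  refine mem_normalizer_of_forall fun y hy => ?_
  have h1 := Fusion.conj_mem_of_mem_normalizer hg (Subgroup.mem_map_of_mem Θ hy)
  obtain ⟨y', hy', e⟩ := h1
  have hz : y'⁻¹ * (g * y * g⁻¹) ∈ Θ.ker := by
    rw [MonoidHom.mem_ker, map_mul, map_inv, e, map_mul, map_mul, map_inv]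
    group
  obtain ⟨hzc, o, ho, hzo⟩ := hk _ hz
  set z := y'⁻¹ * (g * y * g⁻¹) with hzd
  have e2 : g * y * g⁻¹ = y' * z := by
    rw [hzd]
    group
  obtain ⟨f₁, hf₁⟩ := D.isPGroup ⟨y, hy⟩
  obtain ⟨f₂, hf₂⟩ := D.isPGroup ⟨y', hy'⟩
  have hf₁' : y ^ 2 ^ f₁ = 1 := by
    have := congrArg (fun z : D.S0 => (z : L)) hf₁
    simpa using this
  have hf₂' : y' ^ 2 ^ f₂ = 1 := by
    have := congrArg (fun z : D.S0 => (z : L)) hf₂
    simpa using this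
  have hcm : Commute y' z := Subgroup.mem_center_iff.1 hzc y'
  have h3 : z ^ 2 ^ (f₁ + f₂) = 1 := by
    have h4 : (g * y * g⁻¹) ^ 2 ^ (f₁ + f₂) = 1 := by
      rw [conj_pow, pow_add, pow_mul, hf₁', one_pow]
      simp
    rw [e2, hcm.mul_pow] at h4
    have h5 : y' ^ 2 ^ (f₁ + f₂) = 1 := by
      rw [add_comm, pow_add, pow_mul, hf₂', one_pow]
    rwa [h5, one_mul] at h4
  have hz1 := pow_odd_two h3 hzo ho
  rw [e2, hz1, mul_one]
  exact hy'

include H hs hk hS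

/-- The fusion system of `G`. -/
theorem simple_of_dat (hne : D.S0 ≠ ⊥)
    (D4 : ∀ T₀ : Subgroup L, T₀ ≤ D.S0 → T₀ ≠ ⊥ → (∀ y ∈ T₀, ∀ g : L, g * y * g⁻¹ ∈ D.S0 → g * y * g⁻¹ ∈ T₀) → D.S0 ≤ T₀) :
    (groupFusionSystem (S : Subgroup G)).IsSimple 2 := by
  have hSp : IsPGroup 2 (S : Subgroup G) := S.isPGroup'
  have hinj : ∀ y ∈ D.S0, Θ y = 1 → y = 1 := by
    intro y hy h
    obtain ⟨-, o, ho, hyo⟩ := hk y h
    obtain ⟨f, hf⟩ := D.isPGroup ⟨y, hy⟩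
    have hf' : y ^ 2 ^ f = 1 := by
      have := congrArg (fun z : D.S0 => (z : L)) hf
      simpa using this
    exact pow_odd_two hf' hyo ho
  have hinner : ∀ x ∈ Subgroup.normalizer ((S : Subgroup G) : Set G), ∃ s ∈ (S : Subgroup G), ∀ y ∈ (S : Subgroup G),
      x * y * x⁻¹ = s * y * s⁻¹ := by
    intro x hx
    obtain ⟨g, rfl⟩ := hs x
    rw [hS] at hx
    have hg := norm_lift D Θ hk hx
    obtain ⟨s, hs1, hs2⟩ := D.acts_inner H hg
    refine ⟨Θ s, by rw [hS]; exact Subgroup.mem_map_of_mem Θ hs1, fun y hy => ?_⟩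
    rw [hS] at hy
    obtain ⟨y', hy', rfl⟩ := hy
    have := congrArg Θ (hs2 y' hy')
    simpa using this
  refine isSimple_of_generated S ?_ ?_ ?_
  · intro hbot
    apply hne
    rw [eq_bot_iff]
    intro y hy
    have h1 : Θ y ∈ (S : Subgroup G) := by
      rw [hS]
      exact Subgroup.mem_map_of_mem Θ hy
    rw [hbot, Subgroup.mem_bot] at h1
    rw [Subgroup.mem_bot]
    exact hinj y hy h1
  · intro T hT
    by_cases hbot : T = ⊥
    · exact Or.inl hbot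
    refine Or.inr ?_
    have hTS : T ≤ (S : Subgroup G) := hT.1
    have hle := D4 (T.comap Θ ⊓ D.S0) inf_le_right ?_ ?_
    · refine le_antisymm hTS ?_
      rw [hS]
      rintro _ ⟨y, hy, rfl⟩
      exact (hle hy).1
    · obtain ⟨⟨t, ht⟩, ht1⟩ := (Subgroup.ne_bot_iff_exists_ne_one).1 hbot
      have h1 := hTS ht
      rw [hS] at h1
      obtain ⟨y, hy, rfl⟩ := h1
      intro hbot2
      have h2 : y ∈ T.comap Θ ⊓ D.S0 := ⟨ht, hy⟩
      rw [hbot2, Subgroup.mem_bot] at h2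
      apply ht1
      apply Subtype.ext
      simp [h2]
    · rintro y ⟨hy1, hy2⟩ g hg
      refine ⟨?_, hg⟩
      have h1 : Θ g * Θ y * (Θ g)⁻¹ ∈ (S : Subgroup G) := by
        rw [hS]
        exact ⟨_, hg, by simp⟩
      have h2 := sc_conj hT hy1 h1
      show Θ (g * y * g⁻¹) ∈ T
      simpa using h2
  · -- the generation statement, with `R = S`
    apply le_antisymm
    · refine (Subgroup.closure_le _).2 ?_
      rintro α ⟨x, -, hxv⟩
      have hxN : x ∈ Subgroup.normalizer ((S : Subgroup G) : Set G) := mem_normalizer_of_conj hxv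
      obtain ⟨s, hsS, hsv⟩ := hinner x hxN
      have hgood : (groupFusionSystem (S : Subgroup G)).IsFullyNormalized (S : Subgroup G) ∧
          (groupFusionSystem (S : Subgroup G)).IsRadical 2 (S : Subgroup G) ∧
          (groupFusionSystem (S : Subgroup G)).IsCentric (S : Subgroup G) := by
        refine ⟨isFullyNormalized_of_normalizerIn_eq le_rfl (inf_eq_left.2 (Subgroup.le_normalizer)), ⟨le_rfl, ?_⟩, isCentric_top⟩
        refine le_antisymm ?_ (inn_le_pCore hSp le_rfl)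
        rintro d ⟨d', -, rfl⟩
        have hdA : (d' : MulAut (S : Subgroup G)) ∈ autInducedBy ⊤ (S : Subgroup G) := by
          have hAe : (groupFusionSystem (S : Subgroup G)).autGroup (S : Subgroup G) = autInducedBy ⊤ (S : Subgroup G) := by
            rw [groupFusionSystem_eq, autGroup_fH le_top le_rfl]
          exact hAe.le d'.2
        obtain ⟨g, -, hgv⟩ := mem_autInducedBy_iff.1 hdA
        have hgN : g ∈ Subgroup.normalizer ((S : Subgroup G) : Set G) := mem_normalizer_of_conj hgv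
        obtain ⟨s', hs'S, hs'v⟩ := hinner g hgN
        refine ⟨⟨s', hs'S⟩, ?_⟩
        ext y
        show s' * (y : G) * s'⁻¹ = _
        rw [← hs'v _ y.2, ← hgv]
        rfl
      have hsN : s ∈ Subgroup.normalizer ((S : Subgroup G) : Set G) := Subgroup.le_normalizer hsS
      have hsX : s ∈ Subgroup.closure {g : G | g ∈ Subgroup.normalizer (((S : Subgroup G) : Subgroup G) : Set G) ∧ ∃ k : ℕ, orderOf g = 2 ^ k} := by
        refine Subgroup.subset_closure ⟨hsN, ?_⟩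
        obtain ⟨k, hk1⟩ := hSp ⟨s, hsS⟩
        have hk2 : s ^ 2 ^ k = 1 := by
          have := congrArg (fun z : (S : Subgroup G) => (z : G)) hk1
          simpa using this
        obtain ⟨j, -, hj⟩ := (Nat.dvd_prime_pow Nat.prime_two).1 (orderOf_dvd_of_pow_eq_one hk2)
        exact ⟨j, hj⟩
      have h1 := conjAut_mem (K := Subgroup.closure {g : G | g ∈ Subgroup.normalizer (((S : Subgroup G) : Subgroup G) : Set G) ∧ ∃ k : ℕ, orderOf g = 2 ^ k}) hsX hsN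
      have hα : conjAut (S : Subgroup G) s hsN = α := by
        ext y
        rw [conjAut_coe, hxv, hsv _ y.2]
      rw [← hα]
      exact (le_iSup₂_of_le (f := fun (R : Subgroup G) (_ : (groupFusionSystem (S : Subgroup G)).IsFullyNormalized R ∧
          (groupFusionSystem (S : Subgroup G)).IsRadical 2 R ∧ (groupFusionSystem (S : Subgroup G)).IsCentric R) =>
            autInducedBy (Subgroup.closure {g : G | g ∈ Subgroup.normalizer (R : Set G) ∧ ∃ k : ℕ, orderOf g = 2 ^ k})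
              (S : Subgroup G)) _ hgood le_rfl) h1
    · exact iSup₂_le fun R _ => autInducedBy_mono le_top

omit H hs hk hS in
/-- The final assembly, for an arbitrary Sylow subgroup. -/
theorem simple_final (Θ₀ : L →* G) (hs₀ : Function.Surjective Θ₀)
    (hk₀ : ∀ z ∈ Θ₀.ker, z ∈ Subgroup.center L ∧ ∃ o : ℕ, Odd o ∧ z ^ o = 1) (D : Dat L)
    (H : ∀ g ∈ Subgroup.normalizer (D.S0 : Set L), g ∈ D.B ∨ g * D.τ ∈ D.B) (hne : D.S0 ≠ ⊥)
    (D4 : ∀ T₀ : Subgroup L, T₀ ≤ D.S0 → T₀ ≠ ⊥ → (∀ y ∈ T₀, ∀ g : L, g * y * g⁻¹ ∈ D.S0 → g * y * g⁻¹ ∈ T₀) → D.S0 ≤ T₀)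
    (S : Sylow 2 G) : (groupFusionSystem (S : Subgroup G)).IsSimple 2 := by
  obtain ⟨P, hP⟩ := D.exists_sylow H
  let S₀ : Sylow 2 G := P.mapSurjective hs₀
  have hS₀ : (S₀ : Subgroup G) = D.S0.map Θ₀ := by
    rw [Sylow.coe_mapSurjective, hP]
  obtain ⟨h, rfl⟩ := MulAction.exists_smul_eq G S₀ S
  let Θ : L →* G := (MulAut.conj h).toMonoidHom.comp Θ₀
  have hs : Function.Surjective Θ := (MulAut.conj h).surjective.comp hs₀
  have hk : ∀ z ∈ Θ.ker, z ∈ Subgroup.center L ∧ ∃ o : ℕ, Odd o ∧ z ^ o = 1 := by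
    intro z hz
    refine hk₀ z ?_
    rw [MonoidHom.mem_ker] at hz ⊢
    have h1 : h * Θ₀ z * h⁻¹ = 1 := hz
    exact conj_eq_one_iff.1 h1
  have hS : ((h • S₀ : Sylow 2 G) : Subgroup G) = D.S0.map Θ := by
    rw [Sylow.coe_subgroup_smul, hS₀]
    ext x
    rw [Subgroup.mem_pointwise_smul_iff_inv_smul_mem]
    constructor
    · rintro ⟨y, hy, e⟩
      refine ⟨y, hy, ?_⟩
      have e' : Θ₀ y = (MulAut.conj h)⁻¹ • x := e
      show h * Θ₀ y * h⁻¹ = x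
      rw [e']
      simp [MulAut.smul_def, MulAut.conj_apply, mul_assoc]
    · rintro ⟨y, hy, rfl⟩
      refine ⟨y, hy, ?_⟩
      show Θ₀ y = (MulAut.conj h)⁻¹ • (h * Θ₀ y * h⁻¹)
      simp [MulAut.smul_def, MulAut.conj_apply, mul_assoc]
  exact simple_of_dat D H Θ hs hk _ hS hne D4

end Fus

end Cfsg.Agent.Lib.PSL3Two
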