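/-
Block matrices in `SL₃` and the first case: `-1` is a square.
-/
import Cfsg.Agent.Lib.PSL3Two.Gen
import Cfsg.Agent.Lib.SLn.Bru

set_option autoImplicit false

namespace Cfsg.Agent.Lib.PSL3Two

open Cfsg Matrix Cfsg.Agent.Lib.SLn Cfsg.Agent.Lib.Fusion

open Cfsg.Agent.Lib.GLFlag (SLn)

variable {F : Type*} [Field F]

/-- Block matrices. -/
def bk (p r s u m : F) (h : (p * u - r * s) * m = 1) : SLn 3 F :=
  ⟨!![p, r, 0; s, u, 0; 0, 0, m], by
    rw [Matrix.det_fin_three]
    simp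
    linear_combination h⟩

lemma bk_congr {p r s u m p' r' s' u' m' : F} {h : (p * u - r * s) * m = 1} {h' : (p' * u' - r' * s') * m' = 1}
    (h1 : p = p') (h2 : r = r') (h3 : s = s') (h4 : u = u') (h5 : m = m') : bk p r s u m h = bk p' r' s' u' m' h' := by
  subst h1 h2 h3 h4 h5
  rfl

lemma bk_mul {p r s u m p' r' s' u' m' : F} (h : (p * u - r * s) * m = 1) (h' : (p' * u' - r' * s') * m' = 1) :
    bk p r s u m h * bk p' r' s' u' m' h' =
      bk (p * p' + r * s') (p * r' + r * u') (s * p' + u * s') (s * r' + u * u') (m * m')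
        (by linear_combination (p' * u' - r' * s') * m' * h + h') := by
  apply Subtype.ext
  rw [Matrix.SpecialLinearGroup.coe_mul]
  ext i j
  fin_cases i <;> fin_cases j <;> simp [bk, Matrix.mul_apply, Fin.sum_univ_three]

lemma bk_inj {p r s u m p' r' s' u' m' : F} {h : (p * u - r * s) * m = 1} {h' : (p' * u' - r' * s') * m' = 1}
    (e : bk p r s u m h = bk p' r' s' u' m' h') : p = p' ∧ r = r' ∧ s = s' ∧ u = u' ∧ m = m' := by
  have e' : ∀ i j, (bk p r s u m h).1 i j = (bk p' r' s' u' m' h').1 i j := fun i j => by rw [e]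
  refine ⟨?_, ?_, ?_, ?_, ?_⟩
  · simpa [bk] using e' 0 0
  · simpa [bk] using e' 0 1
  · simpa [bk] using e' 1 0
  · simpa [bk] using e' 1 1
  · simpa [bk] using e' 2 2

lemma bk_one : bk (1 : F) 0 0 1 1 (by ring) = 1 := by
  apply Subtype.ext
  ext i j
  fin_cases i <;> fin_cases j <;> simp [bk]

lemma mul3 (g h : SLn 3 F) (i j : Fin 3) : (g * h).1 i j = g.1 i 0 * h.1 0 j + g.1 i 1 * h.1 1 j + g.1 i 2 * h.1 2 j := by
  rw [Matrix.SpecialLinearGroup.coe_mul, Matrix.mul_apply, Fin.sum_univ_three]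

/-- The central involution. -/
def z0 : SLn 3 F := bk (-1) 0 0 (-1) 1 (by ring)

lemma z0_ne (h2 : (2 : F) ≠ 0) : (z0 : SLn 3 F) ≠ 1 := by
  intro e
  have e' := bk_inj (F := F) (e.trans bk_one.symm)
  apply h2
  linear_combination -e'.1

lemma z0_sq : (z0 : SLn 3 F) * z0 = 1 := by
  rw [z0, bk_mul, ← bk_one]
  exact bk_congr (by ring) (by ring) (by ring) (by ring) (by ring)

/-- Commuting with the central involution forces block form. -/
lemma block_of_comm (h2 : (2 : F) ≠ 0) {g : SLn 3 F} (h : g * z0 = z0 * g) :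
    ∃ (p r s u m : F) (hd : (p * u - r * s) * m = 1), g = bk p r s u m hd := by
  have e : ∀ i j, (g * z0).1 i j = (z0 * g).1 i j := fun i j => by rw [h]
  have e02 := e 0 2
  have e12 := e 1 2
  have e20 := e 2 0
  have e21 := e 2 1
  rw [mul3, mul3] at e02 e12 e20 e21
  simp [z0, bk] at e02 e12 e20 e21
  have h02 : g.1 0 2 = 0 := by
    have : (2 : F) * g.1 0 2 = 0 := by linear_combination e02
    exact (mul_eq_zero.1 this).resolve_left h2
  have h12 : g.1 1 2 = 0 := by
    have : (2 : F) * g.1 1 2 = 0 := by linear_combination e12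
    exact (mul_eq_zero.1 this).resolve_left h2
  have h20 : g.1 2 0 = 0 := by
    have : (2 : F) * g.1 2 0 = 0 := by linear_combination -e20
    exact (mul_eq_zero.1 this).resolve_left h2
  have h21 : g.1 2 1 = 0 := by
    have : (2 : F) * g.1 2 1 = 0 := by linear_combination -e21
    exact (mul_eq_zero.1 this).resolve_left h2
  have hdet : (g.1 0 0 * g.1 1 1 - g.1 0 1 * g.1 1 0) * g.1 2 2 = 1 := by
    have := g.2
    rw [Matrix.det_fin_three, h02, h12, h20, h21] at this
    linear_combination this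
  refine ⟨_, _, _, _, _, hdet, ?_⟩
  apply Subtype.ext
  ext i j
  fin_cases i <;> fin_cases j <;> simp [bk, h02, h12, h20, h21]

/-- The cyclic permutation matrix. -/
def sg : SLn 3 F := ⟨!![0, 0, 1; 1, 0, 0; 0, 1, 0], by
  rw [Matrix.det_fin_three]
  simp⟩

lemma sg_conj (a b c : F) (h : (a * b - 0 * 0) * c = 1) (h' : (c * a - 0 * 0) * b = 1) :
    sg * bk a 0 0 b c h * sg⁻¹ = bk c 0 0 a b h' := by
  rw [mul_inv_eq_iff_eq_mul]
  apply Subtype.ext
  rw [Matrix.SpecialLinearGroup.coe_mul, Matrix.SpecialLinearGroup.coe_mul]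
  ext i j
  fin_cases i <;> fin_cases j <;> simp [bk, sg, Matrix.mul_apply, Fin.sum_univ_three]

end Cfsg.Agent.Lib.PSL3Two
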