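/-
The case where `-1` is a square: the wreathed Sylow subgroup.
-/
import Cfsg.Agent.Lib.PSL3Two.SL3

set_option autoImplicit false

namespace Cfsg.Agent.Lib.PSL3Two

open Cfsg Matrix Cfsg.Agent.Lib.SLn Cfsg.Agent.Lib.Fusion

open Cfsg.Agent.Lib.GLFlag (SLn)

variable {F : Type*} [Field F]

/-- Diagonal elements. -/
def dd (a b c : F) (h : a * b * c = 1) : SLn 3 F := bk a 0 0 b c (by linear_combination h)

lemma dd_congr {a b c a' b' c' : F} {h : a * b * c = 1} {h' : a' * b' * c' = 1} (h1 : a = a') (h2 : b = b') (h3 : c = c') :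
    dd a b c h = dd a' b' c' h' := by
  subst h1 h2 h3
  rfl

lemma dd_mul {a b c a' b' c' : F} (h : a * b * c = 1) (h' : a' * b' * c' = 1) :
    dd a b c h * dd a' b' c' h' = dd (a * a') (b * b') (c * c') (by linear_combination a' * b' * c' * h + h') := by
  rw [dd, dd, dd, bk_mul]
  exact bk_congr (by ring) (by ring) (by ring) (by ring) rfl

lemma dd_one : dd (1 : F) 1 1 (by ring) = 1 := by
  rw [← bk_one]
  rfl

lemma dd_pow {a b c : F} (h : a * b * c = 1) (k : ℕ) :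
    dd a b c h ^ k = dd (a ^ k) (b ^ k) (c ^ k) (by rw [← mul_pow, ← mul_pow, h, one_pow]) := by
  induction k with
  | zero =>
    rw [pow_zero, ← dd_one]
    exact dd_congr (by simp) (by simp) (by simp)
  | succ k ih =>
    rw [pow_succ, ih, dd_mul]
    exact dd_congr (by ring) (by ring) (by ring)

lemma dd_inj {a b c a' b' c' : F} {h : a * b * c = 1} {h' : a' * b' * c' = 1} (e : dd a b c h = dd a' b' c' h') :
    a = a' ∧ b = b' ∧ c = c' := by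
  have := bk_inj e
  exact ⟨this.1, this.2.2.2.1, this.2.2.2.2⟩

lemma dd_inv {a b c : F} (h : a * b * c = 1) :
    (dd a b c h)⁻¹ = dd a⁻¹ b⁻¹ c⁻¹ (by rw [← mul_inv, ← mul_inv, h, inv_one]) := by
  have ha : a ≠ 0 := by
    rintro rfl
    simp at h
  have hb : b ≠ 0 := by
    rintro rfl
    simp at h
  have hc : c ≠ 0 := by
    rintro rfl
    simp at h
  apply inv_eq_of_mul_eq_one_right
  rw [dd_mul, ← dd_one]
  exact dd_congr (mul_inv_cancel₀ ha) (mul_inv_cancel₀ hb) (mul_inv_cancel₀ hc)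

section Fin

variable [Finite F]

lemma dd_mem {a b c : F} (h : a * b * c = 1) : dd a b c h ∈ TT 3 F := by
  intro i j hij
  have hij' : i ≠ j := hij
  fin_cases i <;> fin_cases j <;> simp_all [dd, bk]

lemma TT_form {t : SLn 3 F} (ht : t ∈ TT 3 F) : ∃ (a b c : F) (h : a * b * c = 1), t = dd a b c h := by
  have ht' : ∀ i j : Fin 3, i ≠ j → t.1 i j = 0 := fun i j hij => ht i j hij
  have e01 := ht' 0 1 (by decide)
  have e02 := ht' 0 2 (by decide)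
  have e10 := ht' 1 0 (by decide)
  have e12 := ht' 1 2 (by decide)
  have e20 := ht' 2 0 (by decide)
  have e21 := ht' 2 1 (by decide)
  have hdet : t.1 0 0 * t.1 1 1 * t.1 2 2 = 1 := by
    have := t.2
    rw [Matrix.det_fin_three, e01, e02, e10, e12, e20, e21] at this
    linear_combination this
  refine ⟨_, _, _, hdet, ?_⟩
  apply Subtype.ext
  ext i j
  fin_cases i <;> fin_cases j <;> simp [dd, bk, e01, e02, e10, e12, e20, e21]

/-- The involution of the first case. -/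
def t1 : SLn 3 F := bk 0 1 1 0 (-1) (by ring)

lemma t1_sq : (t1 : SLn 3 F) * t1 = 1 := by
  rw [t1, bk_mul, ← bk_one]
  exact bk_congr (by ring) (by ring) (by ring) (by ring) (by ring)

lemma t1_conj {a b c : F} (h : a * b * c = 1) :
    t1 * dd a b c h * t1 = dd b a c (by linear_combination h) := by
  rw [t1, dd, bk_mul, bk_mul, dd]
  exact bk_congr (by ring) (by ring) (by ring) (by ring) (by ring)

/-- The data of the first case. -/
def D1 : Dat (SLn 3 F) where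
  B := TT 3 F
  hB := fun _ hx _ hy => TT_comm hx hy
  τ := t1
  hτ := t1_sq
  hτB := by
    intro b hb
    obtain ⟨x, y, z, h, rfl⟩ := TT_form hb
    rw [t1_conj]
    exact dd_mem _
  hτn := by
    intro h
    have h1 : (t1 : SLn 3 F).1 0 1 = 0 := h 0 1 (by simp)
    simp [t1, bk] at h1

lemma mem_A1 {a b c : F} {h : a * b * c = 1} :
    dd a b c h ∈ (D1 : Dat (SLn 3 F)).A ↔ ∃ e : ℕ, a ^ 2 ^ e = 1 ∧ b ^ 2 ^ e = 1 ∧ c ^ 2 ^ e = 1 := by
  constructor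
  · rintro ⟨-, e, he⟩
    refine ⟨e, ?_⟩
    rw [dd_pow, ← dd_one] at he
    exact dd_inj he
  · rintro ⟨e, h1, h2, h3⟩
    refine ⟨dd_mem h, e, ?_⟩
    rw [dd_pow, ← dd_one]
    exact dd_congr h1 h2 h3

variable {ζ : F} (h2 : (2 : F) ≠ 0) (hζ : ζ * ζ = -1)

include h2 hζ

lemma ζ_ne_zero : ζ ≠ 0 := by
  rintro rfl
  apply h2
  linear_combination 2 * hζ

lemma ζ_ne_one : ζ ≠ 1 := by
  rintro rfl
  apply h2
  linear_combination hζ

omit h2 hζ [Finite F] in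
lemma xx_eq : (-1 : F) * 1 * (-1) = 1 := by ring

/-- The elements that do not commute with `τ`. -/
lemma not_comm_xx {y : SLn 3 F} (hy : y ∈ (D1 : Dat (SLn 3 F)).S0)
    (hc : y * dd (-1 : F) 1 (-1) xx_eq = dd (-1 : F) 1 (-1) xx_eq * y) : y ∈ (D1 : Dat (SLn 3 F)).A := by
  rcases hy with hy | hy
  · exact hy
  · exfalso
    have hy' : y * t1 ∈ TT 3 F := hy.1
    have e : y = (y * t1) * t1 := (D1 : Dat (SLn 3 F)).eq_mul_τ
    have h3 : (y * t1) * dd (-1 : F) 1 (-1) xx_eq = dd (-1 : F) 1 (-1) xx_eq * (y * t1) := TT_comm hy' (dd_mem _)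
    have h4 : t1 * dd (-1 : F) 1 (-1) xx_eq * t1 = dd (-1 : F) 1 (-1) xx_eq := by
      have h5 : (y * t1) * (t1 * dd (-1 : F) 1 (-1) xx_eq) = (y * t1) * (dd (-1 : F) 1 (-1) xx_eq * t1) := by
        calc (y * t1) * (t1 * dd (-1 : F) 1 (-1) xx_eq) = y * (t1 * t1) * dd (-1 : F) 1 (-1) xx_eq := by group
          _ = y * dd (-1 : F) 1 (-1) xx_eq := by rw [t1_sq, mul_one]
          _ = dd (-1 : F) 1 (-1) xx_eq * y := hc
          _ = dd (-1 : F) 1 (-1) xx_eq * ((y * t1) * t1) := by rw [← e]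
          _ = (dd (-1 : F) 1 (-1) xx_eq * (y * t1)) * t1 := by group
          _ = ((y * t1) * dd (-1 : F) 1 (-1) xx_eq) * t1 := by rw [h3]
          _ = (y * t1) * (dd (-1 : F) 1 (-1) xx_eq * t1) := by group
      have h6 := mul_left_cancel h5
      calc t1 * dd (-1 : F) 1 (-1) xx_eq * t1 = (dd (-1 : F) 1 (-1) xx_eq * t1) * t1 := by rw [h6]
        _ = dd (-1 : F) 1 (-1) xx_eq * (t1 * t1) := by group
        _ = dd (-1 : F) 1 (-1) xx_eq := by rw [t1_sq, mul_one]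
    rw [t1_conj] at h4
    have h7 := (dd_inj h4).1
    apply h2
    linear_combination h7

omit hζ in
/-- The central involution is unique. -/
lemma central_unique (hS : ∃ ζ' : F, ζ' * ζ' = -1) {v : SLn 3 F} (hv : v ∈ (D1 : Dat (SLn 3 F)).S0) (hv1 : v ≠ 1) (hv2 : v * v = 1)
    (hvc : ∀ s ∈ (D1 : Dat (SLn 3 F)).S0, s * v = v * s) : v = z0 := by
  obtain ⟨ζ', hζ'⟩ := hS
  have hxS : dd (-1 : F) 1 (-1) xx_eq ∈ (D1 : Dat (SLn 3 F)).S0 := by
    refine (D1 : Dat (SLn 3 F)).A_le (mem_A1.2 ⟨1, by ring, by ring, by ring⟩)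
  have hvA := not_comm_xx h2 hζ' hv (hvc _ hxS).symm
  obtain ⟨a, b, c, h, rfl⟩ := TT_form hvA.1
  have h3 : t1 * dd a b c h * t1 = dd a b c h := by
    have h4 := hvc t1 (D1 : Dat (SLn 3 F)).τ_mem
    rw [h4, mul_assoc, t1_sq, mul_one]
  rw [t1_conj] at h3
  have hab : b = a := (dd_inj h3).1
  subst hab
  rw [dd_mul, ← dd_one] at hv2
  obtain ⟨h5, -, h7⟩ := dd_inj hv2
  have hc1 : c = 1 := by
    have : b * b * c = 1 := h
    rw [h5, one_mul] at this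
    exact this
  subst hc1
  have h8 : (b - 1) * (b + 1) = 0 := by linear_combination h5
  rcases mul_eq_zero.1 h8 with h9 | h9
  · exfalso
    apply hv1
    have : b = 1 := sub_eq_zero.1 h9
    subst this
    exact dd_one
  · have : b = -1 := by linear_combination h9
    subst this
    rfl

lemma z0_eq_dd : (z0 : SLn 3 F) = dd (-1) (-1) 1 (by ring) := rfl

lemma z0_center : ∀ s ∈ (D1 : Dat (SLn 3 F)).S0, s * z0 = z0 * s := by
  intro s hs
  have hzT : (z0 : SLn 3 F) ∈ (D1 : Dat (SLn 3 F)).B := by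
    rw [z0_eq_dd h2 hζ]
    exact dd_mem _
  have hc : (z0 : SLn 3 F) * (D1 : Dat (SLn 3 F)).τ = (D1 : Dat (SLn 3 F)).τ * z0 := by
    show (z0 : SLn 3 F) * t1 = t1 * z0
    rw [z0, t1, bk_mul, bk_mul]
    exact bk_congr (by ring) (by ring) (by ring) (by ring) (by ring)
  exact ((D1 : Dat (SLn 3 F)).odd_central hzT hc hs).symm

lemma z0_mem : (z0 : SLn 3 F) ∈ (D1 : Dat (SLn 3 F)).S0 := by
  rw [z0_eq_dd h2 hζ]
  exact (D1 : Dat (SLn 3 F)).A_le (mem_A1.2 ⟨1, by ring, by ring, by ring⟩)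

/-- The normalizer in the first case. -/
theorem H1 : ∀ g ∈ Subgroup.normalizer (((D1 : Dat (SLn 3 F)).S0 : Subgroup (SLn 3 F)) : Set (SLn 3 F)),
    g ∈ (D1 : Dat (SLn 3 F)).B ∨ g * (D1 : Dat (SLn 3 F)).τ ∈ (D1 : Dat (SLn 3 F)).B := by
  intro g hg
  have hz := (D1 : Dat (SLn 3 F)).fix_inv (z0_ne h2) z0_sq (z0_mem h2 hζ) (z0_center h2 hζ)
    (fun v hv hv1 hv2 hvc => central_unique h2 ⟨ζ, hζ⟩ hv hv1 hv2 hvc) hg
  obtain ⟨p, r, s, u, m, hd, rfl⟩ := block_of_comm h2 hz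
  set g := bk p r s u m hd with hgd
  have hζ0 := ζ_ne_zero h2 hζ
  have hζ1 := ζ_ne_one h2 hζ
  have hxe : ζ * 1 * ζ⁻¹ = 1 := by
    rw [mul_one, mul_inv_cancel₀ hζ0]
  have hxA : dd ζ 1 ζ⁻¹ hxe ∈ (D1 : Dat (SLn 3 F)).A := by
    have h4 : ζ ^ 2 ^ 2 = 1 := by
      have : ζ ^ 2 ^ 2 = (ζ * ζ) * (ζ * ζ) := by ring
      rw [this, hζ]
      ring
    refine mem_A1.2 ⟨2, h4, by simp, ?_⟩
    rw [inv_pow, h4, inv_one]
  have hxx : dd ζ 1 ζ⁻¹ hxe * dd ζ 1 ζ⁻¹ hxe = dd (-1 : F) 1 (-1) xx_eq := by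
    rw [dd_mul]
    refine dd_congr hζ (by ring) ?_
    have : ζ⁻¹ * ζ⁻¹ = (ζ * ζ)⁻¹ := by
      rw [mul_inv]
    rw [this, hζ]
    simp
  have hA : ∀ d ∈ (D1 : Dat (SLn 3 F)).A, g * d * g⁻¹ ∈ (D1 : Dat (SLn 3 F)).A := by
    intro d hd'
    refine not_comm_xx h2 hζ (conj_mem_of_mem_normalizer hg ((D1 : Dat (SLn 3 F)).A_le hd')) ?_
    have hX : g⁻¹ * dd ζ 1 ζ⁻¹ hxe * g ∈ (D1 : Dat (SLn 3 F)).S0 := by
      have := conj_mem_of_mem_normalizer (inv_mem hg) ((D1 : Dat (SLn 3 F)).A_le hxA)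
      simpa using this
    have hXX := (D1 : Dat (SLn 3 F)).sq_mem hX
    have hcm : d * ((g⁻¹ * dd ζ 1 ζ⁻¹ hxe * g) * (g⁻¹ * dd ζ 1 ζ⁻¹ hxe * g)) =
        ((g⁻¹ * dd ζ 1 ζ⁻¹ hxe * g) * (g⁻¹ * dd ζ 1 ζ⁻¹ hxe * g)) * d := TT_comm hd'.1 hXX.1
    rw [← hxx]
    calc g * d * g⁻¹ * (dd ζ 1 ζ⁻¹ hxe * dd ζ 1 ζ⁻¹ hxe)
        = g * (d * ((g⁻¹ * dd ζ 1 ζ⁻¹ hxe * g) * (g⁻¹ * dd ζ 1 ζ⁻¹ hxe * g))) * g⁻¹ := by group
      _ = g * (((g⁻¹ * dd ζ 1 ζ⁻¹ hxe * g) * (g⁻¹ * dd ζ 1 ζ⁻¹ hxe * g)) * d) * g⁻¹ := by rw [hcm]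
      _ = dd ζ 1 ζ⁻¹ hxe * dd ζ 1 ζ⁻¹ hxe * (g * d * g⁻¹) := by group
  obtain ⟨y₁, y₂, y₃, hy, hye⟩ := TT_form (hA _ hxA).1
  have hgx : g * dd ζ 1 ζ⁻¹ hxe = dd y₁ y₂ y₃ hy * g := by
    rw [← hye]
    group
  rw [hgd, dd, dd, bk_mul, bk_mul] at hgx
  obtain ⟨e1, e2, e3, e4, -⟩ := bk_inj hgx
  simp only [mul_zero, add_zero, zero_mul, zero_add, mul_one] at e1 e2 e3 e4
  by_cases hp : p = 0
  · subst hp
    have hs : s ≠ 0 := by
      rintro rfl
      simp at hd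
    have hy2 : y₂ = ζ := by
      have : (y₂ - ζ) * s = 0 := by linear_combination -e3
      exact sub_eq_zero.1 ((mul_eq_zero.1 this).resolve_right hs)
    subst hy2
    have hu : u = 0 := by
      have : (y₂ - 1) * u = 0 := by linear_combination -e4
      exact (mul_eq_zero.1 this).resolve_left (sub_ne_zero.2 hζ1)
    subst hu
    refine Or.inr ?_
    have e : g * (D1 : Dat (SLn 3 F)).τ = dd r s (-m) (by linear_combination hd) := by
      show g * t1 = _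
      rw [hgd, t1, bk_mul, dd]
      exact bk_congr (by ring) (by ring) (by ring) (by ring) (by ring)
    rw [e]
    exact dd_mem _
  · have hy1 : y₁ = ζ := by
      have : (y₁ - ζ) * p = 0 := by linear_combination -e1
      exact sub_eq_zero.1 ((mul_eq_zero.1 this).resolve_right hp)
    subst hy1
    have hr : r = 0 := by
      have : (y₁ - 1) * r = 0 := by linear_combination -e2
      exact (mul_eq_zero.1 this).resolve_left (sub_ne_zero.2 hζ1)
    subst hr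
    have hu : u ≠ 0 := by
      rintro rfl
      simp at hd
    have hy2 : y₂ = 1 := by
      have : (y₂ - 1) * u = 0 := by linear_combination -e4
      exact sub_eq_zero.1 ((mul_eq_zero.1 this).resolve_right hu)
    subst hy2
    have hs : s = 0 := by
      have : (y₁ - 1) * s = 0 := by linear_combination e3
      exact (mul_eq_zero.1 this).resolve_left (sub_ne_zero.2 hζ1)
    subst hs
    refine Or.inl ?_
    have e : g = dd p u m (by linear_combination hd) := rfl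
    rw [e]
    exact dd_mem _

/-- The conjugating element for `τ`. -/
def hh1 (h2 : (2 : F) ≠ 0) : SLn 3 F := ⟨!![1, 0, -2⁻¹; -1, 0, -2⁻¹; 0, 1, 0], by
  rw [Matrix.det_fin_three]
  simp
  field_simp
  ring⟩

omit hζ in
lemma hh1_conj : hh1 h2 * z0 * (hh1 h2)⁻¹ = t1 := by
  rw [mul_inv_eq_iff_eq_mul]
  apply Subtype.ext
  rw [Matrix.SpecialLinearGroup.coe_mul, Matrix.SpecialLinearGroup.coe_mul]
  ext i j
  fin_cases i <;> fin_cases j <;> simp [hh1, z0, t1, bk, Matrix.mul_apply, Fin.sum_univ_three]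

/-- Strongly closed subgroups in the first case. -/
theorem D4_1 : ∀ T₀ : Subgroup (SLn 3 F), T₀ ≤ (D1 : Dat (SLn 3 F)).S0 → T₀ ≠ ⊥ →
    (∀ y ∈ T₀, ∀ g : SLn 3 F, g * y * g⁻¹ ∈ (D1 : Dat (SLn 3 F)).S0 → g * y * g⁻¹ ∈ T₀) →
    (D1 : Dat (SLn 3 F)).S0 ≤ T₀ := by
  intro T₀ hle hne hT
  obtain ⟨v, hvT, hv1, hv2, hvc⟩ := (D1 : Dat (SLn 3 F)).exists_central hle hne hT
  have hv := central_unique h2 ⟨ζ, hζ⟩ (hle hvT) hv1 hv2 hvc
  subst hv
  have hτT : (t1 : SLn 3 F) ∈ T₀ := by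
    have h3 := hT z0 hvT (hh1 h2) (by
      rw [hh1_conj h2]
      exact (D1 : Dat (SLn 3 F)).τ_mem)
    rwa [hh1_conj h2] at h3
  have hE : ∀ (x : F) (hx : x * 1 * x⁻¹ = 1) (hx' : x * x⁻¹ * 1 = 1), (∃ e : ℕ, x ^ 2 ^ e = 1) → dd x x⁻¹ 1 hx' ∈ T₀ := by
    intro x hx hx' ⟨e, he⟩
    have hdA : dd x 1 x⁻¹ hx ∈ (D1 : Dat (SLn 3 F)).A := mem_A1.2 ⟨e, he, by simp, by rw [inv_pow, he, inv_one]⟩
    have h3 := hT t1 hτT (dd x 1 x⁻¹ hx) (mul_mem (mul_mem ((D1 : Dat (SLn 3 F)).A_le hdA) (D1 : Dat (SLn 3 F)).τ_mem) (inv_mem ((D1 : Dat (SLn 3 F)).A_le hdA)))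
    have h4 := mul_mem h3 hτT
    have e1 : dd x 1 x⁻¹ hx * t1 * (dd x 1 x⁻¹ hx)⁻¹ * t1 = dd x 1 x⁻¹ hx * (t1 * (dd x 1 x⁻¹ hx)⁻¹ * t1) := by group
    rw [e1, dd_inv, t1_conj, dd_mul] at h4
    convert h4 using 1
    exact dd_congr (by simp) (by simp) (by
      have hx0 : x ≠ 0 := by
        rintro rfl
        simp at hx
      simp [hx0])
  have hE' : ∀ (x : F) (hx : x * 1 * x⁻¹ = 1) (hx' : x * x⁻¹ * 1 = 1) (hx'' : 1 * x * x⁻¹ = 1), (∃ e : ℕ, x ^ 2 ^ e = 1) → dd 1 x x⁻¹ hx'' ∈ T₀ := by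
    intro x hx hx' hx'' he
    obtain ⟨e, he⟩ := he
    have hdA : dd 1 x x⁻¹ hx'' ∈ (D1 : Dat (SLn 3 F)).A := mem_A1.2 ⟨e, by simp, he, by rw [inv_pow, he, inv_one]⟩
    have h3 := hE x hx hx' ⟨e, he⟩
    have e1 : sg * dd x x⁻¹ 1 hx' * sg⁻¹ = dd 1 x x⁻¹ hx'' := by
      rw [dd, dd]
      exact sg_conj _ _ _ _ _
    have h4 := hT _ h3 sg (by
      rw [e1]
      exact (D1 : Dat (SLn 3 F)).A_le hdA)
    rwa [e1] at h4
  have hA : (D1 : Dat (SLn 3 F)).A ≤ T₀ := by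
    intro d hd
    obtain ⟨a, b, c, h, rfl⟩ := TT_form hd.1
    obtain ⟨e, h3, h4, h5⟩ := mem_A1.1 hd
    have ha : a ≠ 0 := by
      rintro rfl
      simp at h
    have hb : b ≠ 0 := by
      rintro rfl
      simp at h
    have hab : a * b ≠ 0 := mul_ne_zero ha hb
    have hc : c = (a * b)⁻¹ := eq_inv_of_mul_eq_one_right h
    have e1 := hE a (by field_simp) (by field_simp) ⟨e, h3⟩
    have e2 := hE' (a * b) (by field_simp) (by field_simp) (by field_simp) ⟨e, by rw [mul_pow, h3, h4, one_mul]⟩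
    have e3 := mul_mem e1 e2
    rw [dd_mul] at e3
    convert e3 using 1
    exact dd_congr (by ring) (by field_simp) (by rw [hc]; ring)
  intro y hy
  rcases hy with hy | hy
  · exact hA hy
  · have e : y = (y * t1) * t1 := (D1 : Dat (SLn 3 F)).eq_mul_τ
    rw [e]
    exact mul_mem (hA hy) hτT

end Fin

end Cfsg.Agent.Lib.PSL3Two
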