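/-
The case where `-1` is not a square: the semidihedral Sylow subgroup.
-/
import Cfsg.Agent.Lib.PSL3Two.Case1

set_option autoImplicit false

namespace Cfsg.Agent.Lib.PSL3Two

open Cfsg Matrix Cfsg.Agent.Lib.SLn Cfsg.Agent.Lib.Fusion

open Cfsg.Agent.Lib.GLFlag (SLn)

variable {F : Type*} [Field F]

/-- The nonsplit torus. -/
def cc (x y c : F) (h : (x * x + y * y) * c = 1) : SLn 3 F := bk x y (-y) x c (by linear_combination h)

lemma cc_congr {x y c x' y' c' : F} {h : (x * x + y * y) * c = 1} {h' : (x' * x' + y' * y') * c' = 1} (h1 : x = x') (h2 : y = y')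
    (h3 : c = c') : cc x y c h = cc x' y' c' h' := by
  subst h1 h2 h3
  rfl

lemma cc_mul {x y c x' y' c' : F} (h : (x * x + y * y) * c = 1) (h' : (x' * x' + y' * y') * c' = 1) :
    cc x y c h * cc x' y' c' h' = cc (x * x' - y * y') (x * y' + y * x') (c * c')
      (by linear_combination (x' * x' + y' * y') * c' * h + h') := by
  rw [cc, cc, cc, bk_mul]
  exact bk_congr (by ring) (by ring) (by ring) (by ring) rfl

lemma cc_one : cc (1 : F) 0 1 (by ring) = 1 := by
  rw [← bk_one]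
  exact bk_congr rfl rfl (by ring) rfl rfl

lemma cc_inj {x y c x' y' c' : F} {h : (x * x + y * y) * c = 1} {h' : (x' * x' + y' * y') * c' = 1}
    (e : cc x y c h = cc x' y' c' h') : x = x' ∧ y = y' ∧ c = c' := by
  have := bk_inj e
  exact ⟨this.1, this.2.1, this.2.2.2.2⟩

lemma z0_eq_cc : (z0 : SLn 3 F) = cc (-1) 0 1 (by ring) :=
  bk_congr rfl rfl (by ring) rfl rfl

/-- The element of order four. -/
def ii : SLn 3 F := cc 0 1 1 (by ring)

lemma ii_sq : (ii : SLn 3 F) * ii = z0 := by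
  rw [ii, cc_mul, z0_eq_cc]
  exact cc_congr (by ring) (by ring) (by ring)

section Fin

variable [Finite F]

/-- The nonsplit torus as a subgroup. -/
def CC : Subgroup (SLn 3 F) := subOf
  { carrier := {g | ∃ (x y c : F) (h : (x * x + y * y) * c = 1), g = cc x y c h}
    one_mem' := ⟨1, 0, 1, by ring, cc_one.symm⟩
    mul_mem' := by
      rintro _ _ ⟨x, y, c, h, rfl⟩ ⟨x', y', c', h', rfl⟩
      exact ⟨_, _, _, _, cc_mul h h'⟩ }

lemma mem_CC {g : SLn 3 F} : g ∈ CC ↔ ∃ (x y c : F) (h : (x * x + y * y) * c = 1), g = cc x y c h := Iff.rfl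

lemma cc_mem {x y c : F} (h : (x * x + y * y) * c = 1) : cc x y c h ∈ (CC : Subgroup (SLn 3 F)) := ⟨x, y, c, h, rfl⟩

/-- The involution of the second case. -/
def t2 : SLn 3 F := bk 1 0 0 (-1) (-1) (by ring)

lemma t2_sq : (t2 : SLn 3 F) * t2 = 1 := by
  rw [t2, bk_mul, ← bk_one]
  exact bk_congr (by ring) (by ring) (by ring) (by ring) (by ring)

lemma t2_conj {x y c : F} (h : (x * x + y * y) * c = 1) :
    t2 * cc x y c h * t2 = cc x (-y) c (by linear_combination h) := by
  rw [t2, cc, bk_mul, bk_mul, cc]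
  exact bk_congr (by ring) (by ring) (by ring) (by ring) (by ring)

/-- The data of the second case. -/
def D2 (h2 : (2 : F) ≠ 0) : Dat (SLn 3 F) where
  B := CC
  hB := by
    rintro _ ⟨x, y, c, h, rfl⟩ _ ⟨x', y', c', h', rfl⟩
    rw [cc_mul, cc_mul]
    exact cc_congr (by ring) (by ring) (by ring)
  τ := t2
  hτ := t2_sq
  hτB := by
    rintro _ ⟨x, y, c, h, rfl⟩
    rw [t2_conj]
    exact cc_mem _
  hτn := by
    rintro ⟨x, y, c, h, e⟩
    obtain ⟨h3, -, -, h4, -⟩ := bk_inj e
    apply h2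
    linear_combination h3 - h4

variable (h2 : (2 : F) ≠ 0) (hn : ∀ a : F, a * a ≠ -1)

omit [Finite F] in
include hn in
lemma two_part {t : F} : ∀ e : ℕ, t ^ 2 ^ e = 1 → t = 1 ∨ t = -1 := by
  intro e
  induction e generalizing t with
  | zero =>
    intro h
    left
    simpa using h
  | succ e ih =>
    intro h
    have h3 : (t * t) ^ 2 ^ e = 1 := by
      rw [← h, pow_succ', pow_mul]
      ring
    rcases ih h3 with h4 | h4
    · have h5 : (t - 1) * (t + 1) = 0 := by linear_combination h4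
      rcases mul_eq_zero.1 h5 with h6 | h6
      · exact Or.inl (sub_eq_zero.1 h6)
      · exact Or.inr (by linear_combination h6)
    · exact absurd h4 (hn t)

lemma cc_pow_c {x y c : F} (h : (x * x + y * y) * c = 1) (k : ℕ) :
    ∃ (x' y' : F) (h' : (x' * x' + y' * y') * c ^ k = 1), cc x y c h ^ k = cc x' y' (c ^ k) h' := by
  induction k with
  | zero =>
    refine ⟨1, 0, by simp, ?_⟩
    rw [pow_zero, ← cc_one]
    exact cc_congr rfl rfl (by simp)
  | succ k ih =>
    obtain ⟨x', y', h', e⟩ := ih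
    have e2 : cc x y c h ^ (k + 1) = cc (x' * x - y' * y) (x' * y + y' * x) (c ^ k * c)
        (by linear_combination (x * x + y * y) * c * h' + h) := by
      rw [pow_succ, e, cc_mul]
    refine ⟨_, _, ?_, e2.trans (cc_congr rfl rfl (pow_succ c k).symm)⟩
    rw [pow_succ]
    linear_combination (x * x + y * y) * c * h' + h

include h2

lemma not_comm_ii {y : SLn 3 F} (hy : y ∈ (D2 h2).S0) (hc : y * ii = ii * y) : y ∈ (D2 h2).A := by
  rcases hy with hy | hy
  · exact hy
  · exfalso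
    have hy' : y * t2 ∈ (CC : Subgroup (SLn 3 F)) := hy.1
    have e : y = (y * t2) * t2 := (D2 h2).eq_mul_τ
    have h3 : (y * t2) * ii = ii * (y * t2) := (D2 h2).hB _ hy' _ (cc_mem _)
    have h4 : (t2 : SLn 3 F) * ii * t2 = ii := by
      have h5 : (y * t2) * (t2 * ii) = (y * t2) * (ii * t2) := by
        calc (y * t2) * (t2 * ii) = y * (t2 * t2) * ii := by group
          _ = y * ii := by rw [t2_sq, mul_one]
          _ = ii * y := hc
          _ = ii * ((y * t2) * t2) := by rw [← e]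
          _ = (ii * (y * t2)) * t2 := by group
          _ = ((y * t2) * ii) * t2 := by rw [h3]
          _ = (y * t2) * (ii * t2) := by group
      have h6 := mul_left_cancel h5
      calc t2 * ii * t2 = (ii * t2) * t2 := by rw [h6]
        _ = ii * (t2 * t2) := by group
        _ = ii := by rw [t2_sq, mul_one]
    rw [ii, t2_conj] at h4
    have h7 := (cc_inj h4).2.1
    apply h2
    linear_combination -h7

omit h2 in
lemma ii_pow : (ii : SLn 3 F) ^ 2 ^ 2 = 1 := by
  have : (ii : SLn 3 F) ^ 2 ^ 2 = (ii * ii) * (ii * ii) := by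
    rw [show (2 : ℕ) ^ 2 = 2 + 2 from rfl, pow_add, pow_two]
  rw [this, ii_sq, z0_sq]

lemma ii_mem : (ii : SLn 3 F) ∈ (D2 h2).A := ⟨cc_mem _, 2, ii_pow⟩

lemma central_unique2 {v : SLn 3 F} (hv : v ∈ (D2 h2).S0) (hv1 : v ≠ 1) (hv2 : v * v = 1)
    (hvc : ∀ s ∈ (D2 h2).S0, s * v = v * s) : v = z0 := by
  have hvA := not_comm_ii h2 hv (hvc _ ((D2 h2).A_le (ii_mem h2))).symm
  obtain ⟨x, y, c, h, rfl⟩ := hvA.1
  have h3 : t2 * cc x y c h * t2 = cc x y c h := by
    have h4 := hvc t2 (D2 h2).τ_mem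
    rw [h4, mul_assoc, t2_sq, mul_one]
  rw [t2_conj] at h3
  have hy0 : y = 0 := by
    have h5 := (cc_inj h3).2.1
    have : (2 : F) * y = 0 := by linear_combination -h5
    exact (mul_eq_zero.1 this).resolve_left h2
  subst hy0
  rw [cc_mul, ← cc_one] at hv2
  obtain ⟨h5, -, -⟩ := cc_inj hv2
  have h6 : x * x = 1 := by linear_combination h5
  have hc1 : c = 1 := by
    have : (x * x + 0 * 0) * c = 1 := h
    rw [h6] at this
    linear_combination this
  subst hc1
  have h8 : (x - 1) * (x + 1) = 0 := by linear_combination h6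
  rcases mul_eq_zero.1 h8 with h9 | h9
  · exfalso
    apply hv1
    have : x = 1 := sub_eq_zero.1 h9
    subst this
    exact cc_one
  · have : x = -1 := by linear_combination h9
    subst this
    exact z0_eq_cc.symm

lemma z0_center2 : ∀ s ∈ (D2 h2).S0, s * z0 = z0 * s := by
  intro s hs
  have hzT : (z0 : SLn 3 F) ∈ (D2 h2).B := by
    rw [z0_eq_cc]
    exact cc_mem _
  have hc : (z0 : SLn 3 F) * (D2 h2).τ = (D2 h2).τ * z0 := by
    show (z0 : SLn 3 F) * t2 = t2 * z0
    rw [z0, t2, bk_mul, bk_mul]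
    exact bk_congr (by ring) (by ring) (by ring) (by ring) (by ring)
  exact ((D2 h2).odd_central hzT hc hs).symm

lemma z0_mem2 : (z0 : SLn 3 F) ∈ (D2 h2).S0 := by
  rw [← ii_sq]
  exact mul_mem ((D2 h2).A_le (ii_mem h2)) ((D2 h2).A_le (ii_mem h2))

include hn in
/-- An eighth root of unity. -/
lemma exists_e : ∃ (x y c : F) (h : (x * x + y * y) * c = 1), cc x y c h * cc x y c h = ii := by
  classical
  cases nonempty_fintype F
  have hsq : IsSquare (2 : F) ∨ IsSquare (-2 : F) := by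
    by_contra hcon
    push Not at hcon
    obtain ⟨h3, h4⟩ := hcon
    have hn1 : ¬ IsSquare (-1 : F) := by
      rintro ⟨a, ha⟩
      exact hn a ha.symm
    have c1 := quadraticChar_neg_one_iff_not_isSquare.2 h3
    have c2 := quadraticChar_neg_one_iff_not_isSquare.2 hn1
    have c3 : quadraticChar F (-2) = 1 := by
      have e : (-2 : F) = -1 * 2 := by ring
      rw [e, map_mul, c1, c2]
      rfl
    exact h4 ((quadraticChar_one_iff_isSquare (by
      intro h0
      apply h2
      linear_combination -h0)).1 c3)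
  rcases hsq with ⟨t, ht⟩ | ⟨t, ht⟩
  · have ht0 : t ≠ 0 := by
      rintro rfl
      apply h2
      linear_combination ht
    have h3 : (2 : F) * (t⁻¹ * t⁻¹) = 1 := by
      rw [ht]
      field_simp
    refine ⟨t⁻¹, t⁻¹, 1, by linear_combination h3, ?_⟩
    rw [cc_mul, ii]
    exact cc_congr (by ring) (by linear_combination h3) (by ring)
  · have ht0 : t ≠ 0 := by
      rintro rfl
      apply h2
      linear_combination -ht
    have h3 : (-2 : F) * (t⁻¹ * t⁻¹) = 1 := by
      rw [ht]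
      field_simp
    refine ⟨t⁻¹, -t⁻¹, -1, by linear_combination h3, ?_⟩
    rw [cc_mul, ii]
    exact cc_congr (by ring) (by linear_combination h3) (by ring)

include hn in
/-- The normalizer in the second case. -/
theorem H2 : ∀ g ∈ Subgroup.normalizer (((D2 h2).S0 : Subgroup (SLn 3 F)) : Set (SLn 3 F)),
    g ∈ (D2 h2).B ∨ g * (D2 h2).τ ∈ (D2 h2).B := by
  intro g hg
  have hz := (D2 h2).fix_inv (z0_ne h2) z0_sq (z0_mem2 h2) (z0_center2 h2)
    (fun v hv hv1 hv2 hvc => central_unique2 h2 hv hv1 hv2 hvc) hg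
  obtain ⟨p, r, s, u, m, hd, rfl⟩ := block_of_comm h2 hz
  set g := bk p r s u m hd with hgd
  obtain ⟨x₀, y₀, c₀, h₀, he⟩ := exists_e h2 hn
  have heA : cc x₀ y₀ c₀ h₀ ∈ (D2 h2).A := by
    refine ⟨cc_mem _, 3, ?_⟩
    have : cc x₀ y₀ c₀ h₀ ^ 2 ^ 3 = (cc x₀ y₀ c₀ h₀ * cc x₀ y₀ c₀ h₀) ^ 2 ^ 2 := by
      rw [← pow_two, ← pow_mul]
      norm_num
    rw [this, he]
    exact ii_pow
  have hv : g * ii * g⁻¹ * (g * ii * g⁻¹) = z0 := by
    calc g * ii * g⁻¹ * (g * ii * g⁻¹) = g * (ii * ii) * g⁻¹ := by group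
      _ = g * z0 * g⁻¹ := by rw [ii_sq]
      _ = z0 * g * g⁻¹ := by rw [hz]
      _ = z0 := by group
  have hy : g * cc x₀ y₀ c₀ h₀ * g⁻¹ * (g * cc x₀ y₀ c₀ h₀ * g⁻¹) = g * ii * g⁻¹ := by
    rw [← he]
    group
  have hyS := conj_mem_of_mem_normalizer hg ((D2 h2).A_le heA)
  have hyA : g * cc x₀ y₀ c₀ h₀ * g⁻¹ ∈ (D2 h2).A := by
    rcases hyS with hyS | hyS
    · exact hyS
    · exfalso
      obtain ⟨x, y, c, h, e⟩ := hyS.1
      have e2 : g * cc x₀ y₀ c₀ h₀ * g⁻¹ = cc x y c h * t2 := by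
        rw [← e]
        exact (D2 h2).eq_mul_τ
      have e3 : g * ii * g⁻¹ = cc (x * x + y * y) 0 (c * c) (by linear_combination ((x * x + y * y) * c + 1) * h) := by
        rw [← hy, e2]
        calc cc x y c h * t2 * (cc x y c h * t2) = cc x y c h * (t2 * cc x y c h * t2) := by group
          _ = _ := by
            rw [t2_conj, cc_mul]
            exact cc_congr (by ring) (by ring) rfl
      rw [e3, cc_mul, z0_eq_cc] at hv
      have e4 := (cc_inj hv).1
      exact hn (x * x + y * y) (by linear_combination e4)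
  obtain ⟨x, y, c, h, e⟩ := hyA.1
  have hvForm : ∃ (X Y C : F) (hh : (X * X + Y * Y) * C = 1), g * ii * g⁻¹ = cc X Y C hh := by
    refine ⟨x * x - y * y, x * y + y * x, c * c, by linear_combination ((x * x + y * y) * c + 1) * h, ?_⟩
    rw [← hy, e, cc_mul]
  obtain ⟨X, Y, C, hh, e3⟩ := hvForm
  have hvv := hv
  rw [e3, cc_mul, z0_eq_cc] at hvv
  obtain ⟨e4, e5, -⟩ := cc_inj hvv
  have hXY : X * Y = 0 := by
    have : (2 : F) * (X * Y) = 0 := by linear_combination e5
    exact (mul_eq_zero.1 this).resolve_left h2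
  have hX0 : X = 0 := by
    rcases mul_eq_zero.1 hXY with h3 | h3
    · exact h3
    · exfalso
      rw [h3] at e4
      exact hn X (by linear_combination e4)
  subst hX0
  have hYY : Y * Y = 1 := by linear_combination -e4
  have hC : C = 1 := by
    linear_combination hh - C * hYY
  subst hC
  have hgi : g * ii = cc 0 Y 1 hh * g := by
    rw [← e3]
    group
  rw [hgd, ii, cc, cc, bk_mul, bk_mul] at hgi
  obtain ⟨e1', e2', e3', e4', -⟩ := bk_inj hgi
  have hY2 : (Y - 1) * (Y + 1) = 0 := by linear_combination hYY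
  rcases mul_eq_zero.1 hY2 with h3 | h3
  · have hY1 : Y = 1 := sub_eq_zero.1 h3
    subst hY1
    have hsr : s = -r := by linear_combination -e1'
    have hup : u = p := by linear_combination -e2'
    subst hsr hup
    refine Or.inl ?_
    have hd' : (u * u + r * r) * m = 1 := by linear_combination hd
    exact ⟨u, r, m, hd', rfl⟩
  · have hY1 : Y = -1 := by linear_combination h3
    subst hY1
    have hsr : s = r := by linear_combination e1'
    have hup : u = -p := by linear_combination e2'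
    subst hsr hup
    refine Or.inr ?_
    have hd' : (p * p + (-s) * (-s)) * (-m) = 1 := by linear_combination hd
    refine ⟨p, -s, -m, hd', ?_⟩
    show g * t2 = _
    rw [hgd, t2, bk_mul, cc]
    exact bk_congr (by ring) (by ring) (by ring) (by ring) (by ring)

include hn in
/-- Elements of norm one. -/
lemma norm_one_mem {T₀ : Subgroup (SLn 3 F)} (hT : ∀ y ∈ T₀, ∀ g : SLn 3 F, g * y * g⁻¹ ∈ (D2 h2).S0 → g * y * g⁻¹ ∈ T₀)
    (hzT : (z0 : SLn 3 F) ∈ T₀) (hτT : (t2 : SLn 3 F) ∈ T₀) {x y : F} (h : (x * x + y * y) * 1 = 1)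
    (ha : cc x y 1 h ∈ (D2 h2).A) : cc x y 1 h ∈ T₀ := by
  by_cases hx : x = -1
  · subst hx
    have hy : y = 0 := by
      have : y * y = 0 := by linear_combination h
      exact mul_self_eq_zero.1 this
    subst hy
    rw [z0_eq_cc] at hzT
    exact hzT
  · have hx1 : (1 + x) ≠ 0 := fun h0 => hx (by linear_combination h0)
    have hN : (1 + x) * (1 + x) + y * y ≠ 0 := by
      have e : (1 + x) * (1 + x) + y * y = 2 * (1 + x) := by linear_combination h
      rw [e]
      exact mul_ne_zero h2 hx1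
    have hu : ((1 + x) * (1 + x) + y * y) * ((1 + x) * (1 + x) + y * y)⁻¹ = 1 := mul_inv_cancel₀ hN
    refine (D2 h2).comm_mem hT hτT (u := cc (1 + x) y _ hu) (cc_mem _) ha ?_
    show cc x y 1 h = cc (1 + x) y _ hu * t2 * (cc (1 + x) y _ hu)⁻¹ * t2
    have hτinv : (t2 : SLn 3 F)⁻¹ = t2 := (D2 h2).inv_τ
    have e1 : cc (1 + x) y _ hu * t2 * (cc (1 + x) y _ hu)⁻¹ * t2 = cc (1 + x) y _ hu * (t2 * cc (1 + x) y _ hu * t2)⁻¹ := by
      rw [_root_.mul_inv_rev, _root_.mul_inv_rev, hτinv]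
      group
    rw [e1, eq_mul_inv_iff_mul_eq, t2_conj, cc_mul]
    exact cc_congr (by linear_combination h) (by ring) (by ring)

include hn in
/-- Strongly closed subgroups in the second case. -/
theorem D4_2 : ∀ T₀ : Subgroup (SLn 3 F), T₀ ≤ (D2 h2).S0 → T₀ ≠ ⊥ →
    (∀ y ∈ T₀, ∀ g : SLn 3 F, g * y * g⁻¹ ∈ (D2 h2).S0 → g * y * g⁻¹ ∈ T₀) →
    (D2 h2).S0 ≤ T₀ := by
  intro T₀ hle hne hT
  obtain ⟨v, hvT, hv1, hv2, hvc⟩ := (D2 h2).exists_central hle hne hT
  have hv := central_unique2 h2 (hle hvT) hv1 hv2 hvc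
  subst hv
  have hτT : (t2 : SLn 3 F) ∈ T₀ := by
    have e : sg * (z0 : SLn 3 F) * sg⁻¹ = t2 := sg_conj _ _ _ _ _
    have h3 := hT z0 hvT sg (by
      rw [e]
      exact (D2 h2).τ_mem)
    rwa [e] at h3
  have hiiT : (ii : SLn 3 F) ∈ T₀ := norm_one_mem h2 hn hT hvT hτT (by ring) (ii_mem h2)
  have hA : (D2 h2).A ≤ T₀ := by
    intro a ha
    obtain ⟨⟨x, y, c, h, rfl⟩, e, he⟩ := ha
    have hc : c ^ 2 ^ e = 1 := by
      obtain ⟨x', y', h', e'⟩ := cc_pow_c h (2 ^ e)
      rw [e', ← cc_one] at he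
      exact (cc_inj he).2.2
    rcases two_part hn e hc with hc1 | hc1
    · subst hc1
      exact norm_one_mem h2 hn hT hvT hτT h ⟨cc_mem _, e, he⟩
    · subst hc1
      have hN : x * x + y * y = -1 := by linear_combination -h
      have hy0 : y ≠ 0 := by
        rintro rfl
        exact hn x (by linear_combination hN)
      have hh : (x * 0 - 1 * (-y)) * y⁻¹ = 1 := by
        have := mul_inv_cancel₀ hy0
        linear_combination this
      have hb : (x * (-x) - (-y) * (-y)) * 1 = 1 := by linear_combination -hN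
      have e1 : bk x 1 (-y) 0 y⁻¹ hh * ii = bk x (-y) (-y) (-x) 1 hb * bk x 1 (-y) 0 y⁻¹ hh := by
        rw [ii, cc, bk_mul, bk_mul]
        exact bk_congr (by linear_combination -hN) (by ring) (by ring) (by ring) (by ring)
      have e2 : bk x 1 (-y) 0 y⁻¹ hh * ii * (bk x 1 (-y) 0 y⁻¹ hh)⁻¹ = bk x (-y) (-y) (-x) 1 hb := by
        rw [mul_inv_eq_iff_eq_mul]
        exact e1
      have e3 : cc x y (-1) h * t2 = bk x (-y) (-y) (-x) 1 hb := by
        rw [cc, t2, bk_mul]
        exact bk_congr (by ring) (by ring) (by ring) (by ring) (by ring)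
      have hbS : bk x (-y) (-y) (-x) 1 hb ∈ (D2 h2).S0 := by
        rw [← e3]
        exact Or.inr (by
          show cc x y (-1) h * t2 * t2 ∈ (D2 h2).A
          rw [mul_assoc, t2_sq, mul_one]
          exact ⟨cc_mem _, e, he⟩)
      have h3 := hT ii hiiT (bk x 1 (-y) 0 y⁻¹ hh) (by
        rw [e2]
        exact hbS)
      rw [e2, ← e3] at h3
      have h4 := mul_mem h3 hτT
      rwa [mul_assoc, t2_sq, mul_one] at h4
  intro y hy
  rcases hy with hy | hy
  · exact hA hy
  · have e : y = (y * t2) * t2 := (D2 h2).eq_mul_τ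
    rw [e]
    exact mul_mem (hA hy) hτT

end Fin

end Cfsg.Agent.Lib.PSL3Two
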