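/-
The `2`-fusion system of `PSL₃(q)`, `q` odd, is simple.
-/
import Cfsg.Agent.Lib.PSL3Two.Case2
import Cfsg.Agent.Lib.GLFlag.PSL

set_option autoImplicit false

namespace Cfsg.Agent.Lib.PSL3Two

open Cfsg Matrix Cfsg.Agent.Lib.SLn Cfsg.Agent.Lib.Fusion

open Cfsg.Agent.Lib.GLFlag (SLn PSLn pSL pSL_surj)

variable {F : Type*} [Field F] [Fintype F]

lemma two_ne (hodd : Fintype.card F % 2 = 1) : (2 : F) ≠ 0 := by
  intro h
  haveI : CharP F 2 := CharTwo.of_one_ne_zero_of_two_eq_zero one_ne_zero h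
  have h1 : ringChar F = 2 := ringChar.eq F 2
  have h3 := FiniteField.even_card_of_char_two h1
  omega

theorem psl3_simple (hodd : Fintype.card F % 2 = 1) (S : Sylow 2 (PSLn 3 F)) :
    (Cfsg.groupFusionSystem (S : Subgroup (PSLn 3 F))).IsSimple 2 := by
  have h2 := two_ne hodd
  have hk₀ : ∀ z ∈ (pSL (n := 3) (F := F)).ker, z ∈ Subgroup.center (SLn 3 F) ∧ ∃ o : ℕ, Odd o ∧ z ^ o = 1 := by
    intro z hz
    have hz' : z ∈ Subgroup.center (SLn 3 F) := by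
      have h1 : (pSL (n := 3) (F := F)).ker = Subgroup.center (SLn 3 F) := QuotientGroup.ker_mk' _
      rwa [h1] at hz
    refine ⟨hz', 3, by decide, ?_⟩
    obtain ⟨r, hr, e⟩ := Matrix.SpecialLinearGroup.mem_center_iff.1 hz'
    apply Subtype.ext
    rw [Matrix.SpecialLinearGroup.coe_pow, ← e, ← map_pow]
    have hr' : r ^ 3 = 1 := by simpa using hr
    rw [hr', map_one]
    rfl
  by_cases hs : ∃ ζ : F, ζ * ζ = -1
  · obtain ⟨ζ, hζ⟩ := hs
    refine simple_final pSL pSL_surj hk₀ D1 (H1 h2 hζ) ?_ (D4_1 h2 hζ) S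
    intro h
    have h3 : (t1 : SLn 3 F) ∈ (⊥ : Subgroup (SLn 3 F)) := h ▸ (D1 : Dat (SLn 3 F)).τ_mem
    rw [Subgroup.mem_bot] at h3
    apply (D1 : Dat (SLn 3 F)).hτn
    show (t1 : SLn 3 F) ∈ TT 3 F
    rw [h3]
    exact one_mem _
  · have hn : ∀ a : F, a * a ≠ -1 := fun a ha => hs ⟨a, ha⟩
    refine simple_final pSL pSL_surj hk₀ (D2 h2) (H2 h2 hn) ?_ (D4_2 h2 hn) S
    intro h
    have h3 : (t2 : SLn 3 F) ∈ (⊥ : Subgroup (SLn 3 F)) := h ▸ (D2 h2).τ_mem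
    rw [Subgroup.mem_bot] at h3
    apply (D2 h2).hτn
    show (t2 : SLn 3 F) ∈ CC
    rw [h3]
    exact one_mem _

end Cfsg.Agent.Lib.PSL3Two
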